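import Groth.Agent.FormalB.GradedQuot

/-!
# Quotients of graded free modules of arbitrary rank

`⊕_j A(-e j)` for an arbitrary index set `J` (as `J →₀ A`), the analogue of `Groth.Agent.FormalB.GradedQuot`
(which treats finite `J`).
-/

set_option autoImplicit false
set_option linter.unusedSectionVars false

universe u

open DirectSum

namespace Groth.Agent.Ega2.H264.GradedQuotInf

open Groth.Agent.FormalB.GrTildeSect Groth.Agent.FormalB.GradedQuot

variable {R A : Type u} [CommRing R] [CommRing A] [Algebra R A] (𝒜 : ℕ → Submodule R A) [GradedAlgebra 𝒜]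
variable {J : Type u} (e : J → ℕ)

/-- The degree-`n` part of the graded free module `⊕ A(-e j)`. -/
def shiftPartF (n : ℕ) : Submodule R (J →₀ A) where
  carrier := {v | ∀ j, v j ∈ zdeg 𝒜 ((n : ℤ) + (-(e j : ℤ)))}
  add_mem' := fun hx hy j => add_mem (hx j) (hy j)
  zero_mem' := fun _ => zero_mem _
  smul_mem' := fun c _ hv j => Submodule.smul_mem _ c (hv j)

theorem mem_shiftPartF {n : ℕ} {v : J →₀ A} :
    v ∈ shiftPartF 𝒜 e n ↔ ∀ j, v j ∈ zdeg 𝒜 ((n : ℤ) + (-(e j : ℤ))) := Iff.rfl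

/-- The degree-`n` component of a vector. -/
noncomputable def compF (n : ℕ) (v : J →₀ A) : J →₀ A :=
  Finsupp.onFinset v.support (fun j => if e j ≤ n then (DirectSum.decompose 𝒜 (v j) (n - e j) : A) else 0) (by
    intro j hj
    rw [Finsupp.mem_support_iff]
    intro h0
    apply hj
    rw [h0]
    split_ifs
    · simp
    · rfl)

theorem compF_apply (n : ℕ) (v : J →₀ A) (j : J) :
    compF 𝒜 e n v j = if e j ≤ n then (DirectSum.decompose 𝒜 (v j) (n - e j) : A) else 0 := rfl

theorem compF_mem (n : ℕ) (v : J →₀ A) : compF 𝒜 e n v ∈ shiftPartF 𝒜 e n := by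
  intro j
  rw [compF_apply]
  split_ifs with h
  · exact mem_zdeg_of_eq (i := n - e j) (by push_cast [Nat.cast_sub h]; ring) (SetLike.coe_mem _)
  · exact zero_mem _

theorem compF_of_mem {n : ℕ} {v : J →₀ A} (hv : v ∈ shiftPartF 𝒜 e n) : compF 𝒜 e n v = v := by
  ext j
  have := hv j
  rw [compF_apply]
  split_ifs with h
  · exact DirectSum.decompose_of_mem_same 𝒜 (mem_of_mem_zdeg (i := n - e j) (by push_cast [Nat.cast_sub h]; ring) this)
  · rw [zdeg_of_neg (by omega)] at this
    exact ((Submodule.mem_bot R).mp this).symm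

theorem compF_of_mem_ne {n m : ℕ} (hnm : n ≠ m) {v : J →₀ A} (hv : v ∈ shiftPartF 𝒜 e m) :
    compF 𝒜 e n v = 0 := by
  ext j
  have := hv j
  rw [compF_apply]
  split_ifs with h
  · rcases mem_zdeg_iff.mp this with ⟨i, hi, hi'⟩ | h0
    · exact DirectSum.decompose_of_mem_ne 𝒜 hi' (by omega)
    · rw [h0]; simp
  · rfl

theorem compF_add (n : ℕ) (v w : J →₀ A) : compF 𝒜 e n (v + w) = compF 𝒜 e n v + compF 𝒜 e n w := by
  ext j
  rw [Finsupp.add_apply, compF_apply, compF_apply, compF_apply, Finsupp.add_apply]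
  split_ifs
  · rw [DirectSum.decompose_add]; rfl
  · simp

theorem compF_zero (n : ℕ) : compF 𝒜 e n (0 : J →₀ A) = 0 := by
  ext j
  rw [compF_apply]
  simp

theorem compF_sum {ι : Type*} (n : ℕ) (s : Finset ι) (v : ι → J →₀ A) :
    compF 𝒜 e n (∑ i ∈ s, v i) = ∑ i ∈ s, compF 𝒜 e n (v i) := by
  classical
  induction s using Finset.induction_on with
  | empty => simp [compF_zero]
  | insert a s ha ih => rw [Finset.sum_insert ha, Finset.sum_insert ha, compF_add, ih]

theorem exists_eq_sum_compF (v : J →₀ A) : ∃ s : Finset ℕ, v = ∑ n ∈ s, compF 𝒜 e n v := by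
  classical
  refine ⟨v.support.biUnion (fun j : J => (DirectSum.decompose 𝒜 (v j)).support.image (fun k => k + e j)), ?_⟩
  set s := v.support.biUnion (fun j : J => (DirectSum.decompose 𝒜 (v j)).support.image (fun k => k + e j)) with hs
  ext j
  rw [Finsupp.finsetSum_apply]
  by_cases hj : j ∈ v.support
  · have h1 : ∑ n ∈ s, compF 𝒜 e n v j = ∑ n ∈ (DirectSum.decompose 𝒜 (v j)).support.image (fun k => k + e j),
        compF 𝒜 e n v j := by
      symm
      apply Finset.sum_subset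
      · intro n hn
        exact Finset.mem_biUnion.mpr ⟨j, hj, hn⟩
      · intro n _ hn
        rw [compF_apply]
        split_ifs with h
        · by_contra hne
          apply hn
          refine Finset.mem_image.mpr ⟨n - e j, ?_, by omega⟩
          rw [DFinsupp.mem_support_iff]
          intro h0
          exact hne (by rw [h0]; rfl)
        · rfl
    rw [h1, Finset.sum_image (fun a _ b _ hab => by simpa using hab)]
    conv_lhs => rw [← DirectSum.sum_support_decompose 𝒜 (v j)]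
    refine Finset.sum_congr rfl fun k _ => ?_
    rw [compF_apply, if_pos (Nat.le_add_left _ _), Nat.add_sub_cancel]
  · rw [Finsupp.notMem_support_iff] at hj
    rw [hj]
    symm
    refine Finset.sum_eq_zero fun n _ => ?_
    rw [compF_apply, hj]
    simp

theorem smul_mem_shiftPartF {i n : ℕ} {a : A} {v : J →₀ A} (ha : a ∈ 𝒜 i) (hv : v ∈ shiftPartF 𝒜 e n) :
    a • v ∈ shiftPartF 𝒜 e (i + n) := fun j =>
  smul_mem_zdeg_of_eq 𝒜 ha (hv j) (by push_cast; ring)

theorem single_mem_shiftPartF {n : ℕ} {j : J} {a : A} (ha : a ∈ zdeg 𝒜 ((n : ℤ) + (-(e j : ℤ)))) :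
    Finsupp.single j a ∈ shiftPartF 𝒜 e n := by
  classical
  intro k
  rw [Finsupp.single_apply]
  split_ifs with h
  · subst h; exact ha
  · exact zero_mem _

variable (K : Submodule A (J →₀ A)) (hK : ∀ v ∈ K, ∀ n, compF 𝒜 e n v ∈ K)

/-- The grading of the quotient of `⊕ A(-e j)` by a homogeneous submodule. -/
noncomputable def quotPartF (n : ℕ) : Submodule R ((J →₀ A) ⧸ K) :=
  (shiftPartF 𝒜 e n).map (K.mkQ.restrictScalars R)

theorem mem_quotPartF {n : ℕ} {x : (J →₀ A) ⧸ K} :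
    x ∈ quotPartF 𝒜 e K n ↔ ∃ v ∈ shiftPartF 𝒜 e n, K.mkQ v = x := Iff.rfl

include hK in
theorem isInternal_quotPartF : DirectSum.IsInternal (quotPartF 𝒜 e K) := by
  refine isInternal_of_finset _ (fun x => ?_) (fun s y hy h0 n hn => ?_)
  · obtain ⟨v, rfl⟩ := K.mkQ_surjective x
    obtain ⟨s, hs⟩ := exists_eq_sum_compF 𝒜 e v
    refine ⟨s, fun n => K.mkQ (compF 𝒜 e n v), fun n => ⟨_, compF_mem 𝒜 e n v, rfl⟩, ?_⟩
    conv_lhs => rw [hs]
    rw [map_sum]
  · choose v hv hvy using hy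
    have h1 : ∑ n ∈ s, v n ∈ K := by
      rw [← Submodule.Quotient.mk_eq_zero, ← Submodule.mkQ_apply, map_sum, ← h0]
      exact Finset.sum_congr rfl fun m _ => hvy m
    have h2 := hK _ h1 n
    rw [compF_sum, Finset.sum_eq_single n (fun m _ hm => compF_of_mem_ne 𝒜 e hm.symm (hv m))
      (fun h => absurd hn h), compF_of_mem 𝒜 e (hv n)] at h2
    rw [← hvy n]
    exact (Submodule.Quotient.mk_eq_zero K).mpr h2

instance gradedSMul_quotPartF : SetLike.GradedSMul 𝒜 (quotPartF 𝒜 e K) where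
  smul_mem := by
    rintro i n a x ha ⟨v, hv, rfl⟩
    exact ⟨a • v, smul_mem_shiftPartF 𝒜 e ha hv, map_smul K.mkQ a v⟩

theorem mem_zdeg_quotPartF {n : ℕ} {x : (J →₀ A) ⧸ K} (h : x ∈ zdeg (quotPartF 𝒜 e K) ((n : ℤ) + 0)) :
    ∃ v ∈ shiftPartF 𝒜 e n, K.mkQ v = x := mem_of_mem_zdeg (ℳ := quotPartF 𝒜 e K) (by simp) h

end Groth.Agent.Ega2.H264.GradedQuotInf
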