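import Groth.Agent.FormalB.TildeOfPres
import Groth.Agent.Ega2.H264.GradedQuotInf

/-!
# The comparison morphism from the graded module presented by an arbitrary family of maps `O(-e j) ⟶ F`

The analogue of `Groth.Agent.FormalB.TildeOfPres` (finite index sets) for an arbitrary index set `J`.
-/

set_option autoImplicit false
set_option linter.unusedSectionVars false

universe u

open CategoryTheory CategoryTheory.Limits AlgebraicGeometry TopologicalSpace Opposite TopCat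

namespace Groth.Agent.Ega2.H264.TildeOfPresInf

open Groth.Agent.FormalB Groth.Agent.FormalB.GrTildeSect Groth.Agent.FormalB.GlueHom Groth.Agent.FormalB.TwistFrac
open Groth.Agent.FormalB.TildeHom Groth.Agent.FormalB.GradedQuot Groth.Agent.FormalB.TildeOfPres
open Groth.Agent.Ega2.H264.GradedQuotInf

variable {R A : Type u} [CommRing R] [CommRing A] [Algebra R A] {𝒜 : ℕ → Submodule R A} [GradedAlgebra 𝒜]

variable {J : Type u} (e : J → ℕ) {F : (Proj 𝒜).Modules} (φ : ∀ j, Twist.twist 𝒜 (-(e j : ℤ)) ⟶ F)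

/-- The section `∑ φ_j (v_j / s)` of `F`. -/
noncomputable def evF (U : (Proj 𝒜).Opens) {n : ℕ} {s : A} (hs : s ∈ 𝒜 n) (hU : NV U s) {v : J →₀ A}
    (hv : v ∈ shiftPartF 𝒜 e n) : Γ(F, U) :=
  ∑ j ∈ v.support, (φ j).app U (tfrac (-(e j : ℤ)) U hs hU (hv j))

theorem evF_eq_sum (U : (Proj 𝒜).Opens) {n : ℕ} {s : A} (hs : s ∈ 𝒜 n) (hU : NV U s) {v : J →₀ A}
    (hv : v ∈ shiftPartF 𝒜 e n) (T : Finset J) (hT : v.support ⊆ T) :
    evF e φ U hs hU hv = ∑ j ∈ T, (φ j).app U (tfrac (-(e j : ℤ)) U hs hU (hv j)) := by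
  rw [evF]
  refine Finset.sum_subset hT fun j _ hj => ?_
  have h0 : v j = 0 := Finsupp.notMem_support_iff.mp hj
  have : tfrac (𝒜 := 𝒜) (-(e j : ℤ)) U hs hU (hv j) = 0 := by
    rw [← tfrac_zero (-(e j : ℤ)) U hs hU]
    exact tfrac_congr (by rw [h0])
  rw [this, map_zero]

theorem evF_congr {U : (Proj 𝒜).Opens} {n n' : ℕ} {s s' : A} {hs : s ∈ 𝒜 n} {hs' : s' ∈ 𝒜 n'} {hU : NV U s}
    {hU' : NV U s'} {v v' : J →₀ A} {hv : v ∈ shiftPartF 𝒜 e n} {hv' : v' ∈ shiftPartF 𝒜 e n'}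
    (h : s' • v = s • v') : evF e φ U hs hU hv = evF e φ U hs' hU' hv' := by
  classical
  rw [evF_eq_sum e φ U hs hU hv (v.support ∪ v'.support) Finset.subset_union_left,
    evF_eq_sum e φ U hs' hU' hv' (v.support ∪ v'.support) Finset.subset_union_right]
  refine Finset.sum_congr rfl fun j _ => ?_
  congr 1
  exact tfrac_congr (DFunLike.congr_fun h j)

theorem res_evF {U V : (Proj 𝒜).Opens} (h : V ≤ U) {n : ℕ} {s : A} (hs : s ∈ 𝒜 n) (hU : NV U s) {v : J →₀ A}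
    (hv : v ∈ shiftPartF 𝒜 e n) : GlueHom.res F h (evF e φ U hs hU hv) = evF e φ V hs (hU.mono h) hv := by
  rw [evF, res_sum, evF]
  refine Finset.sum_congr rfl fun j _ => ?_
  rw [← app_res, res_tfrac]

theorem evF_add (U : (Proj 𝒜).Opens) {n : ℕ} {s : A} (hs : s ∈ 𝒜 n) (hU : NV U s) {v w : J →₀ A}
    (hv : v ∈ shiftPartF 𝒜 e n) (hw : w ∈ shiftPartF 𝒜 e n) :
    evF e φ U hs hU (add_mem hv hw) = evF e φ U hs hU hv + evF e φ U hs hU hw := by
  classical
  rw [evF_eq_sum e φ U hs hU hv (v.support ∪ w.support) Finset.subset_union_left,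
    evF_eq_sum e φ U hs hU hw (v.support ∪ w.support) Finset.subset_union_right,
    evF_eq_sum e φ U hs hU (add_mem hv hw) (v.support ∪ w.support) Finsupp.support_add,
    ← Finset.sum_add_distrib]
  refine Finset.sum_congr rfl fun j _ => ?_
  rw [← map_add, tfrac_add]
  rfl

theorem evF_smul (U : (Proj 𝒜).Opens) {i n : ℕ} {a b s : A} (ha : a ∈ 𝒜 i) (hb : b ∈ 𝒜 i) (hbU : NV U b)
    (hs : s ∈ 𝒜 n) (hU : NV U s) {v : J →₀ A} (hv : v ∈ shiftPartF 𝒜 e n) :
    ofrac U ha hb hbU • evF e φ U hs hU hv =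
      evF e φ U (SetLike.mul_mem_graded hb hs) (hbU.mul hU) (smul_mem_shiftPartF 𝒜 e ha hv) := by
  rw [evF_eq_sum e φ U (SetLike.mul_mem_graded hb hs) (hbU.mul hU) (smul_mem_shiftPartF 𝒜 e ha hv) v.support
    Finsupp.support_smul, evF, Finset.smul_sum]
  refine Finset.sum_congr rfl fun j _ => ?_
  rw [← Scheme.Modules.Hom.app_smul, ofrac_smul_tfrac]
  rfl

/-- `w`, homogeneous of degree `n`, is killed by the evaluation map. -/
def NullF (n : ℕ) (w : J →₀ A) : Prop :=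
  ∃ hw : w ∈ shiftPartF 𝒜 e n, ∀ (i : ℕ) (a : A) (ha : a ∈ 𝒜 i) (U : (Proj 𝒜).Opens) (s : A) (hs : s ∈ 𝒜 (i + n))
    (hU : NV U s), evF e φ U hs hU (smul_mem_shiftPartF 𝒜 e ha hw) = 0

theorem NullF.zero (n : ℕ) : NullF e φ n 0 := by
  refine ⟨zero_mem _, fun i a ha U s hs hU => ?_⟩
  rw [evF_eq_sum e φ U hs hU _ ∅ (by rw [smul_zero]; exact Finset.Subset.refl _)]
  rfl

theorem NullF.add {n : ℕ} {w w' : J →₀ A} (h : NullF e φ n w) (h' : NullF e φ n w') : NullF e φ n (w + w') := by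
  obtain ⟨hw, h⟩ := h
  obtain ⟨hw', h'⟩ := h'
  refine ⟨add_mem hw hw', fun i a ha U s hs hU => ?_⟩
  have := evF_add e φ U hs hU (smul_mem_shiftPartF 𝒜 e ha hw) (smul_mem_shiftPartF 𝒜 e ha hw')
  rw [h _ _ ha, h' _ _ ha, add_zero] at this
  rw [← this]
  exact evF_congr e φ (by rw [smul_add])

theorem NullF.smul {i n : ℕ} {a : A} (ha : a ∈ 𝒜 i) {w : J →₀ A} (h : NullF e φ n w) :
    NullF e φ (i + n) (a • w) := by
  obtain ⟨hw, h⟩ := h
  refine ⟨smul_mem_shiftPartF 𝒜 e ha hw, fun i' a' ha' U s hs hU => ?_⟩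
  rw [← h (i' + i) (a' * a) (SetLike.mul_mem_graded ha' ha) U s (by rwa [add_assoc]) hU]
  exact evF_congr e φ (by rw [mul_smul])

theorem NullF.neg {n : ℕ} {w : J →₀ A} (h : NullF e φ n w) : NullF e φ n (-w) := by
  have h1 : (-1 : A) ∈ 𝒜 0 := neg_mem SetLike.GradedOne.one_mem
  have := NullF.smul e φ h1 h
  rwa [neg_one_smul, zero_add] at this

/-- The homogeneous submodule of vectors killed by the evaluation map. -/
noncomputable def kerF : Submodule A (J →₀ A) where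
  carrier := AddSubgroup.closure {w | ∃ n, NullF e φ n w}
  add_mem' := fun h h' => add_mem h h'
  zero_mem' := zero_mem (AddSubgroup.closure {w | ∃ n, NullF e φ n w})
  smul_mem' := by
    classical
    intro a w hw
    induction hw using AddSubgroup.closure_induction with
    | mem w hw =>
      obtain ⟨n, hn⟩ := hw
      rw [← DirectSum.sum_support_decompose 𝒜 a, Finset.sum_smul]
      exact sum_mem fun k _ => AddSubgroup.subset_closure ⟨k + n, NullF.smul e φ (SetLike.coe_mem _) hn⟩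
    | zero => rw [smul_zero]; exact zero_mem (AddSubgroup.closure {w | ∃ n, NullF e φ n w})
    | add x y _ _ hx hy => rw [smul_add]; exact add_mem hx hy
    | neg x _ hx => rw [smul_neg]; exact neg_mem hx

theorem null_compF_of_mem_kerF {w : J →₀ A} (hw : w ∈ kerF e φ) (n : ℕ) : NullF e φ n (compF 𝒜 e n w) := by
  change w ∈ AddSubgroup.closure {w | ∃ n, NullF e φ n w} at hw
  induction hw using AddSubgroup.closure_induction with
  | mem w hw =>
    obtain ⟨m, hm⟩ := hw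
    by_cases h : n = m
    · subst h
      rwa [compF_of_mem 𝒜 e hm.choose]
    · rw [compF_of_mem_ne 𝒜 e h hm.choose]
      exact NullF.zero e φ n
  | zero => rw [compF_zero]; exact NullF.zero e φ n
  | add x y _ _ hx hy => rw [compF_add]; exact NullF.add e φ hx hy
  | neg x _ hx =>
    have : compF 𝒜 e n (-x) = - compF 𝒜 e n x := by
      rw [eq_neg_iff_add_eq_zero, ← compF_add, neg_add_cancel, compF_zero]
    rw [this]
    exact NullF.neg e φ hx

theorem mem_kerF_of_null {n : ℕ} {w : J →₀ A} (h : NullF e φ n w) : w ∈ kerF e φ :=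
  AddSubgroup.subset_closure ⟨n, h⟩

theorem compF_mem_kerF {w : J →₀ A} (hw : w ∈ kerF e φ) (n : ℕ) : compF 𝒜 e n w ∈ kerF e φ :=
  mem_kerF_of_null e φ (null_compF_of_mem_kerF e φ hw n)

theorem null_of_mem_kerF {n : ℕ} {w : J →₀ A} (hw : w ∈ kerF e φ) (h : w ∈ shiftPartF 𝒜 e n) :
    NullF e φ n w := by
  have := null_compF_of_mem_kerF e φ hw n
  rwa [compF_of_mem 𝒜 e h] at this

theorem evF_eq_of_sub_mem_kerF {U : (Proj 𝒜).Opens} {n : ℕ} {s : A} {hs : s ∈ 𝒜 n} {hU : NV U s} {v w : J →₀ A}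
    {hv : v ∈ shiftPartF 𝒜 e n} {hw : w ∈ shiftPartF 𝒜 e n} (h : v - w ∈ kerF e φ) :
    evF e φ U hs hU hv = evF e φ U hs hU hw := by
  obtain ⟨h1, h2⟩ := null_of_mem_kerF e φ h (sub_mem hv hw)
  have h3 := h2 0 1 SetLike.GradedOne.one_mem U s (by rwa [zero_add]) hU
  have h4 := evF_add e φ U hs hU h1 hw
  have h5 : evF e φ U hs hU h1 = 0 := by
    rw [← h3]
    exact evF_congr e φ (by rw [one_smul])
  rw [h5, zero_add] at h4
  rw [← h4]
  exact evF_congr e φ (by rw [sub_add_cancel])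

/-- The grading on the quotient. -/
noncomputable abbrev qpartF : ℕ → Submodule R ((J →₀ A) ⧸ kerF e φ) := quotPartF 𝒜 e (kerF e φ)

/-- The quotient by the kernel of the evaluation map is a graded module. -/
@[instance_reducible]
noncomputable def qdecompF : DirectSum.Decomposition (qpartF e φ) :=
  (isInternal_quotPartF 𝒜 e (kerF e φ) (fun _ hv n => compF_mem_kerF e φ hv n)).chooseDecomposition

theorem mkQ_mem_zdegF {n : ℕ} {v : J →₀ A} (hv : v ∈ shiftPartF 𝒜 e n) :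
    (kerF e φ).mkQ v ∈ zdeg (qpartF e φ) ((n : ℤ) + 0) :=
  mem_zdeg_of_eq (i := n) (by simp) ⟨v, hv, rfl⟩

theorem exists_lift_of_memF {n : ℕ} {x : (J →₀ A) ⧸ kerF e φ} (hx : x ∈ zdeg (qpartF e φ) ((n : ℤ) + 0)) :
    ∃ v ∈ shiftPartF 𝒜 e n, (kerF e φ).mkQ v = x :=
  mem_zdeg_quotPartF 𝒜 e (kerF e φ) hx

/-- The comparison morphism `((⊕ A(-e_j)) / ker)~ ⟶ F`. -/
theorem exists_mapF : ∃ Ψ : GrTilde.tilde 𝒜 (qpartF e φ) 0 ⟶ F,
    ∀ (U : (Proj 𝒜).Opens) (n : ℕ) (s : A) (hs : s ∈ 𝒜 n) (hU : NV U s) (v : J →₀ A) (hv : v ∈ shiftPartF 𝒜 e n),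
      Ψ.app U (gfrac 0 U hs hU (mkQ_mem_zdegF e φ hv)) = evF e φ U hs hU hv := by
  have hD : DirectSum.Decomposition (qpartF e φ) := qdecompF e φ
  have hev : ∀ {n : ℕ} {x : (J →₀ A) ⧸ kerF e φ} (hx : x ∈ zdeg (qpartF e φ) ((n : ℤ) + 0)) {v : J →₀ A}
      (hv : v ∈ shiftPartF 𝒜 e n) (h : (kerF e φ).mkQ v = x) (U : (Proj 𝒜).Opens) {s : A} (hs : s ∈ 𝒜 n)
      (hU : NV U s), evF e φ U hs hU (exists_lift_of_memF e φ hx).choose_spec.1 = evF e φ U hs hU hv := by
    intro n x hx v hv h U s hs hU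
    apply evF_eq_of_sub_mem_kerF
    rw [← Submodule.Quotient.mk_eq_zero, ← Submodule.mkQ_apply, map_sub, h,
      (exists_lift_of_memF e φ hx).choose_spec.2, sub_self]
  have main := exists_hom_of_frac (𝒜 := 𝒜) (ℳ := qpartF e φ) 0 F
    (fun U n s hs hU x hx => evF e φ U hs hU (exists_lift_of_memF e φ hx).choose_spec.1) ?_ ?_ ?_ ?_
  · obtain ⟨Ψ, hΨ⟩ := main
    refine ⟨Ψ, fun U n s hs hU v hv => ?_⟩
    rw [hΨ]
    exact hev (mkQ_mem_zdegF e φ hv) hv rfl _ _ _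
  · intro U V h n s hs hU x hx
    exact res_evF e φ h _ _ _
  · intro U n s hs hU x x' hx hx'
    rw [← evF_add]
    refine hev (add_mem hx hx') _ ?_ _ _ _
    rw [map_add, (exists_lift_of_memF e φ hx).choose_spec.2, (exists_lift_of_memF e φ hx').choose_spec.2]
  · intro U i n b s hb hbU hs hU x hx
    have h1 : b • (exists_lift_of_memF e φ hx).choose ∈ shiftPartF 𝒜 e (i + n) :=
      smul_mem_shiftPartF 𝒜 e hb (exists_lift_of_memF e φ hx).choose_spec.1
    rw [hev (smul_mem_zdeg_of_eq 𝒜 hb hx (by push_cast; ring)) h1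
      (by rw [map_smul, (exists_lift_of_memF e φ hx).choose_spec.2])]
    exact evF_congr e φ (by rw [smul_smul, mul_comm])
  · intro U i n a b s ha hb hbU hs hU x hx
    rw [evF_smul]
    refine (hev (smul_mem_zdeg_of_eq 𝒜 ha hx (by push_cast; ring)) _ ?_ _ _ _).symm
    rw [map_smul, (exists_lift_of_memF e φ hx).choose_spec.2]

end Groth.Agent.Ega2.H264.TildeOfPresInf
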