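import Groth.Agent.FormalB.TildeIso
import Groth.Agent.Ega2.H264.TildeOfPresInf

/-!
# The comparison morphism is an isomorphism (arbitrary index sets)

The analogue of `Groth.Agent.FormalB.TildeIso` for an arbitrary family of maps `O(-e j) ⟶ F`.
-/

set_option autoImplicit false
set_option linter.unusedSectionVars false

universe u

open CategoryTheory CategoryTheory.Limits AlgebraicGeometry TopologicalSpace Opposite TopCat

namespace Groth.Agent.Ega2.H264.TildeIsoInf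

open Groth.Agent.FormalB Groth.Agent.FormalB.GrTildeSect Groth.Agent.FormalB.GlueHom Groth.Agent.FormalB.TwistFrac
open Groth.Agent.FormalB.TildeHom Groth.Agent.FormalB.GradedQuot Groth.Agent.FormalB.TildeOfPres
open Groth.Agent.FormalB.TildeIso
open Groth.Agent.Ega2.H264.GradedQuotInf Groth.Agent.Ega2.H264.TildeOfPresInf

variable {R A : Type u} [CommRing R] [CommRing A] [Algebra R A] {𝒜 : ℕ → Submodule R A} [GradedAlgebra 𝒜]

variable {J : Type u} (e : J → ℕ) {F : (Proj 𝒜).Modules} (φ : ∀ j, Twist.twist 𝒜 (-(e j : ℤ)) ⟶ F)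

variable {ι : Type} [Fintype ι] {c : ℕ} (hc : 0 < c) {f : ι → A} (hf : ∀ i, f i ∈ 𝒜 c)
  (hcov : ∀ x : ProjectiveSpectrum 𝒜, ∃ i, f i ∉ x.asHomogeneousIdeal)

include hc hf hcov in
/-- If the evaluation of `v / g` vanishes on `D_+(g)` then some `g ^ m v` is killed by the evaluation map. -/
theorem exists_nullF (hF : SheafOfModules.IsQuasicoherent (R := (Proj 𝒜).ringCatSheaf) F) {n : ℕ} {g : A}
    (hg : g ∈ 𝒜 n)
    {U : (Proj 𝒜).Opens} (hUg : U = Proj.basicOpen 𝒜 g) (hU : NV U g)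
    {v : J →₀ A} (hv : v ∈ shiftPartF 𝒜 e n) (h0 : evF e φ U hg hU hv = 0) :
    ∃ m l : ℕ, NullF e φ l (g ^ m • v) := by
  obtain ⟨c', rfl⟩ : ∃ c', c = c' + 1 := ⟨c - 1, by omega⟩
  have hv1 : g ^ c' • v ∈ shiftPartF 𝒜 e (n * (c' + 1)) := by
    have := smul_mem_shiftPartF 𝒜 e (mem_pow hg c') hv
    have h2 : c' * n + n = n * (c' + 1) := by ring
    rwa [h2] at this
  have hgc : g ^ (c' + 1) ∈ 𝒜 (n * (c' + 1)) := by
    have := mem_pow hg (c' + 1)
    rwa [mul_comm] at this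
  have hloc : ∀ i, ∃ N : ℕ, ∀ k, N ≤ k → ofrac (Proj.basicOpen 𝒜 (f i)) (mem_pow hgc k) (mem_pow (mem_pow (hf i) n) k)
      (((NV.basicOpen (f i)).pow n).pow k) •
        evF e φ (Proj.basicOpen 𝒜 (f i)) (mem_pow (hf i) n) ((NV.basicOpen (f i)).pow n) hv1 = 0 := by
    intro i
    have hloc := CohqB.QC2.loc_of_isQuasicoherent F (Proj.isAffineOpen_basicOpen 𝒜 (f i) (hf i) hc)
    set h := ofrac (Proj.basicOpen 𝒜 (f i)) hgc (mem_pow (hf i) n) ((NV.basicOpen (f i)).pow n) with hh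
    set y := evF e φ (Proj.basicOpen 𝒜 (f i)) (mem_pow (hf i) n) ((NV.basicOpen (f i)).pow n) hv1 with hy
    have hle : (Proj 𝒜).basicOpen h ≤ Proj.basicOpen 𝒜 (g ^ (c' + 1)) := basicOpen_ofrac_le hgc _ _
    have hNVg : NV ((Proj 𝒜).basicOpen h) g := fun x hx hgx => hle hx (by
      rw [pow_succ]; exact Ideal.mul_mem_left _ _ hgx)
    have hres : GlueHom.res F ((Proj 𝒜).basicOpen_le h) y = 0 := by
      rw [hy, res_evF]
      have h1 : evF e φ ((Proj 𝒜).basicOpen h) hg hNVg hv = 0 := by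
        have hle' : (Proj 𝒜).basicOpen h ≤ U := by
          rw [hUg]
          exact fun x hx => hNVg x hx
        rw [← res_evF e φ hle' hg hU hv, h0, GlueHom.res_zero]
      have h2 := evF_smul e φ ((Proj 𝒜).basicOpen h) hgc (mem_pow (hf i) n)
        (((NV.basicOpen (f i)).pow n).mono ((Proj 𝒜).basicOpen_le h)) hg hNVg hv
      rw [h1, smul_zero] at h2
      rw [h2]
      exact evF_congr e φ (by rw [smul_smul, smul_smul]; congr 1; ring)
    obtain ⟨N, hN⟩ := hloc.eq_zero h y hres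
    refine ⟨N, fun k hk => ?_⟩
    obtain ⟨l, rfl⟩ := Nat.exists_eq_add_of_le hk
    rw [← ofrac_pow hgc (mem_pow (hf i) n) ((NV.basicOpen (f i)).pow n), ← hh, add_comm, pow_add, mul_smul, hN,
      smul_zero]
  choose N₀ hN₀ using hloc
  let N := Finset.univ.sup N₀
  have hN : ∀ i, ofrac (Proj.basicOpen 𝒜 (f i)) (mem_pow hgc N) (mem_pow (mem_pow (hf i) n) N)
      (((NV.basicOpen (f i)).pow n).pow N) •
        evF e φ (Proj.basicOpen 𝒜 (f i)) (mem_pow (hf i) n) ((NV.basicOpen (f i)).pow n) hv1 = 0 :=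
    fun i => hN₀ i N (Finset.le_sup (Finset.mem_univ i))
  refine ⟨(c' + 1) * N + c', N * (n * (c' + 1)) + n * (c' + 1), ?_⟩
  have hw : g ^ ((c' + 1) * N + c') • v ∈ shiftPartF 𝒜 e (N * (n * (c' + 1)) + n * (c' + 1)) := by
    have := smul_mem_shiftPartF 𝒜 e (mem_pow hg ((c' + 1) * N + c')) hv
    have h2 : ((c' + 1) * N + c') * n + n = N * (n * (c' + 1)) + n * (c' + 1) := by ring
    rwa [h2] at this
  refine ⟨hw, fun k a ha W s hs hW => ?_⟩
  refine eq_of_local F fun x hx => ?_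
  obtain ⟨i, hi⟩ := hcov x
  have hxV : x ∈ W ⊓ Proj.basicOpen 𝒜 (f i) := ⟨hx, hi⟩
  refine ⟨W ⊓ Proj.basicOpen 𝒜 (f i), inf_le_left, hxV, ?_⟩
  rw [res_evF, GlueHom.res_zero]
  have hP : (f i ^ n) ^ N * f i ^ n ∈ 𝒜 (N * (n * (c' + 1)) + n * (c' + 1)) :=
    SetLike.mul_mem_graded (mem_pow (mem_pow (hf i) n) N) (mem_pow (hf i) n)
  have hPU : NV (Proj.basicOpen 𝒜 (f i)) ((f i ^ n) ^ N * f i ^ n) :=
    (((NV.basicOpen (f i)).pow n).pow N).mul ((NV.basicOpen (f i)).pow n)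
  have h1 : evF e φ (Proj.basicOpen 𝒜 (f i)) hP hPU hw = 0 := by
    rw [← hN i, evF_smul]
    exact evF_congr e φ (by rw [smul_smul, smul_smul, smul_smul]; congr 1; ring)
  have h2 : evF e φ (W ⊓ Proj.basicOpen 𝒜 (f i)) hP (hPU.mono inf_le_right) hw = 0 := by
    rw [← res_evF e φ (inf_le_right : W ⊓ Proj.basicOpen 𝒜 (f i) ≤ _) hP hPU hw, h1, GlueHom.res_zero]
  have h3 := evF_smul e φ (W ⊓ Proj.basicOpen 𝒜 (f i)) (SetLike.mul_mem_graded ha hP) hs (hW.mono inf_le_left) hP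
    (hPU.mono inf_le_right) hw
  rw [h2, smul_zero] at h3
  rw [h3]
  exact evF_congr e φ (by simp only [smul_smul]; congr 1; ring)

include hc hf hcov in
/-- The comparison map is an isomorphism as soon as every section of `F` is locally in the image of one of the
`φ_j`, up to sums. -/
theorem exists_isoF (hF : SheafOfModules.IsQuasicoherent (R := (Proj 𝒜).ringCatSheaf) F)
    (hLS : ∀ (U : (Proj 𝒜).Opens) (y : Γ(F, U)), ∀ x ∈ U, ∃ (V : (Proj 𝒜).Opens) (h : V ≤ U) (j : J)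
      (t : Γ(Twist.twist 𝒜 (-(e j : ℤ)), V)), x ∈ V ∧ GlueHom.res F h y = (φ j).app V t) :
    Nonempty (GrTilde.tilde 𝒜 (qpartF e φ) 0 ≅ F) := by
  classical
  have hD : DirectSum.Decomposition (qpartF e φ) := qdecompF e φ
  obtain ⟨Ψ, hΨ⟩ := exists_mapF e φ
  have : IsIso Ψ := by
    apply isIso_of_local
    · intro U t ht x hx
      obtain ⟨V, h, n, g, m, hg, hV, hm, -, hxV, hVg, heq⟩ := exists_gfrac t x hx
      obtain ⟨v, hv, rfl⟩ := exists_lift_of_memF e φ hm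
      refine ⟨V, h, hxV, ?_⟩
      have h1 : evF e φ V hg hV hv = 0 := by
        rw [← hΨ V n g hg hV v hv, ← heq, GlueHom.app_res, ht, GlueHom.res_zero]
      obtain ⟨k, l, hkl⟩ := exists_nullF e φ hc hf hcov hF hg hVg hV hv h1
      rw [heq]
      have h2 : (kerF e φ).mkQ (g ^ k • v) = 0 := by
        rw [Submodule.mkQ_apply, Submodule.Quotient.mk_eq_zero]
        exact mem_kerF_of_null e φ hkl
      apply gval_ext
      intro y
      rw [gval_gfrac, gval_zero]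
      have h3 : (LocalizedModule.mk ((kerF e φ).mkQ v) ⟨g, hV y.1 y.2⟩ : GrTilde.LocMod 𝒜 y.1) =
          LocalizedModule.mk 0 ⟨g, hV y.1 y.2⟩ := by
        apply mk_eq_of_smul_eq (g ^ k) (pow_notMem (hV y.1 y.2) k)
        rw [smul_zero, smul_zero, smul_comm, ← map_smul, h2, smul_zero]
      rw [h3, LocalizedModule.zero_mk]
    · intro U y x hx
      obtain ⟨V, h, j, t, hxV, ht⟩ := hLS U y x hx
      obtain ⟨W, hWV, d, g, a, hg, hW, ha, hxW, hWt⟩ := exists_tfrac t x hxV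
      have hv : Finsupp.single j a ∈ shiftPartF 𝒜 e d := single_mem_shiftPartF 𝒜 e ha
      refine ⟨W, hWV.trans h, gfrac 0 W hg hW (mkQ_mem_zdegF e φ hv), hxW, ?_⟩
      rw [hΨ _ _ _ hg hW _ hv, evF_eq_sum e φ W hg hW hv {j} Finsupp.support_single_subset, Finset.sum_singleton,
        ← GlueHom.res_res F h hWV, ht, ← GlueHom.app_res, hWt]
      congr 1
      exact tfrac_congr (by rw [Finsupp.single_eq_same])
  exact ⟨asIso Ψ⟩

end Groth.Agent.Ega2.H264.TildeIsoInf
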