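import Groth.Agent.FormalB.TwistExt
import Groth.Agent.Ega2.H264.TildeIsoInf

/-!
# Every quasi-coherent module on `Proj 𝒜` is `M~`

`Proj 𝒜` covered by finitely many `D_+(f_i)`, all `f_i` of the same positive degree.
-/

set_option autoImplicit false
set_option linter.unusedSectionVars false

universe u

open CategoryTheory CategoryTheory.Limits AlgebraicGeometry TopologicalSpace Opposite TopCat

namespace Groth.Agent.Ega2.H264.QCohTilde

open Groth.Agent.FormalB Groth.Agent.FormalB.GlueHom Groth.Agent.FormalB.TwistExt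
open Groth.Agent.Ega2.H264.TildeOfPresInf Groth.Agent.Ega2.H264.TildeIsoInf

variable {R A : Type u} [CommRing R] [CommRing A] [Algebra R A] {𝒜 : ℕ → Submodule R A} [GradedAlgebra 𝒜]

variable {F : (Proj 𝒜).Modules} {ι : Type} [Fintype ι] {c : ℕ} (hc : 0 < c) {f : ι → A} (hf : ∀ i, f i ∈ 𝒜 c)
  (hcov : ∀ x : ProjectiveSpectrum 𝒜, ∃ i, f i ∉ x.asHomogeneousIdeal)

include hc hf hcov in
/-- The family of all sections over the charts gives a graded module `M` with `M~ ≅ F`. -/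
theorem exists_family (hF : SheafOfModules.IsQuasicoherent (R := (Proj 𝒜).ringCatSheaf) F) :
    ∃ (J : Type u) (e : J → ℕ) (ψ : ∀ j, Twist.twist 𝒜 (-(e j : ℤ)) ⟶ F),
      Nonempty (GrTilde.tilde 𝒜 (qpartF e ψ) 0 ≅ F) := by
  choose N φ t ht using fun i => exists_hom_of_section (F := F) hf hcov hc hF i
  refine ⟨Σ i : ι, Γ(F, Proj.basicOpen 𝒜 (f i)), fun p => N p.1 p.2 * c, fun p => φ p.1 p.2,
    exists_isoF _ _ hc hf hcov hF ?_⟩
  intro U y x hx
  obtain ⟨i, hi⟩ := hcov x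
  have haff := Proj.isAffineOpen_basicOpen 𝒜 (f i) (hf i) hc
  obtain ⟨h, hle, hxh⟩ := haff.exists_basicOpen_le (V := U) ⟨x, hx⟩ hi
  obtain ⟨n, z, hz⟩ := (CohqB.QC2.loc_of_isQuasicoherent F haff).exists_lift h (GlueHom.res F hle y)
  have hz' : GlueHom.res F ((Proj 𝒜).basicOpen_le h) z =
    ((Proj 𝒜).presheaf.map (homOfLE ((Proj 𝒜).basicOpen_le h)).op h) ^ n • GlueHom.res F hle y := hz
  have hu : IsUnit ((Proj 𝒜).presheaf.map (homOfLE ((Proj 𝒜).basicOpen_le h)).op h) :=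
    RingedSpace.isUnit_res_basicOpen (Proj 𝒜).toRingedSpace h
  obtain ⟨b, hb⟩ := (hu.pow n).exists_left_inv
  refine ⟨(Proj 𝒜).basicOpen h, hle, ⟨i, z⟩, b • GlueHom.res _ ((Proj 𝒜).basicOpen_le h) (t i z), hxh, ?_⟩
  rw [Scheme.Modules.Hom.app_smul, GlueHom.app_res, ht, hz', smul_smul, hb, one_smul]

include hc hf hcov in
/-- Every quasi-coherent module on `Proj 𝒜` is `M~` for a graded module `M`. -/
theorem exists_tilde_iso (hF : SheafOfModules.IsQuasicoherent (R := (Proj 𝒜).ringCatSheaf) F) :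
    ∃ (M : Type u) (_ : AddCommGroup M) (_ : Module R M) (_ : Module A M) (_ : IsScalarTower R A M)
      (ℳ : ℕ → Submodule R M) (_ : DirectSum.Decomposition ℳ) (_ : SetLike.GradedSMul 𝒜 ℳ),
      Nonempty (GrTilde.tilde 𝒜 ℳ 0 ≅ F) := by
  obtain ⟨J, e, ψ, h⟩ := exists_family hc hf hcov hF
  exact ⟨(J →₀ A) ⧸ kerF e ψ, inferInstance, inferInstance, inferInstance, inferInstance, qpartF e ψ,
    qdecompF e ψ, inferInstance, h⟩

end Groth.Agent.Ega2.H264.QCohTilde
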